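import Cfsg.Agent.StB.Blocks
import Cfsg.Agent.GLn.PronEven
/-!
# The split BN-pair of the special linear group
-/
set_option autoImplicit false

namespace Cfsg.Agent.StB
open Cfsg Cfsg.Agent.GLn Matrix Equiv

variable {F : Type*} [Field F] {n : ℕ}

local notation "SLn" => Matrix.SpecialLinearGroup (Fin n) F
local notation "tv" => Matrix.SpecialLinearGroup.transvection

/-- a monomial matrix supported on the graph of a permutation -/
def Mono (g : SLn) (σ : Perm (Fin n)) : Prop := ∀ i j, j ≠ σ i → g.1 i j = 0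

namespace Mono
variable {g g' : Matrix.SpecialLinearGroup (Fin n) F} {σ τ : Perm (Fin n)}

theorem mul_apply (h : Mono g σ) (M : Matrix (Fin n) (Fin n) F) (i k : Fin n) :
    (g.1 * M) i k = g.1 i (σ i) * M (σ i) k := by
  rw [Matrix.mul_apply, Finset.sum_eq_single (σ i)]
  · intro j _ hj; rw [h i j hj, zero_mul]
  · simp

theorem mul_apply' (h : Mono g σ) (M : Matrix (Fin n) (Fin n) F) (i k : Fin n) :
    (M * g.1) k (σ i) = M k i * g.1 i (σ i) := by
  rw [Matrix.mul_apply, Finset.sum_eq_single i]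
  · intro j _ hj; rw [h j _ fun e => hj (σ.injective e).symm, mul_zero]
  · simp

theorem mul (h : Mono g σ) (h' : Mono g' τ) : Mono (g * g') (τ * σ) := fun i j hj => by
  rw [Matrix.SpecialLinearGroup.coe_mul, h.mul_apply, h' _ _ hj, mul_zero]

theorem mul_inv_apply (h : Mono g σ) (i k : Fin n) :
    g.1 i (σ i) * (g⁻¹).1 (σ i) k = (1 : Matrix (Fin n) (Fin n) F) i k := by
  rw [← h.mul_apply, ← Matrix.SpecialLinearGroup.coe_mul, mul_inv_cancel]; rfl

theorem ne_zero (h : Mono g σ) (i : Fin n) : g.1 i (σ i) ≠ 0 :=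
  left_ne_zero_of_mul_eq_one ((h.mul_inv_apply i i).trans (one_apply_eq i))

theorem inv (h : Mono g σ) : Mono g⁻¹ σ⁻¹ := fun i j hj => by
  obtain ⟨i, rfl⟩ := σ.surjective i
  have := h.mul_inv_apply i j
  rw [one_apply_ne (by simpa [eq_comm] using hj)] at this
  exact (mul_eq_zero.1 this).resolve_left (h.ne_zero i)

theorem one : Mono (1 : SLn) 1 := fun _ _ h => one_apply_ne h.symm

theorem conj_apply (h : Mono g σ) (u : SLn) (i j : Fin n) :
    (g⁻¹ * u * g).1 (σ i) (σ j) = (g.1 i (σ i))⁻¹ * u.1 i j * g.1 j (σ j) := by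
  rw [Matrix.SpecialLinearGroup.coe_mul, Matrix.SpecialLinearGroup.coe_mul, h.mul_apply', h.inv.mul_apply,
    show σ⁻¹ (σ i) = i from σ.symm_apply_apply i, eq_inv_of_mul_eq_one_right ((h.mul_inv_apply i i).trans (one_apply_eq i))]

theorem conj_mem (h : Mono g σ) {u : SLn} (h1 : ∀ i, u.1 i i = 1)
    (h2 : ∀ i j, σ j < σ i → u.1 i j = 0) : g⁻¹ * u * g ∈ utSL n F := by
  refine ⟨fun i j hij => ?_, fun i => ?_⟩
  · obtain ⟨i, rfl⟩ := σ.surjective i
    obtain ⟨j, rfl⟩ := σ.surjective j
    rw [h.conj_apply, h2 i j hij, mul_zero, zero_mul]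
  · obtain ⟨i, rfl⟩ := σ.surjective i
    rw [h.conj_apply, h1, mul_one, inv_mul_cancel₀ (h.ne_zero i)]

theorem conj_tv (h : Mono g σ) {i j : Fin n} (hij : i ≠ j) (t : F) :
    g⁻¹ * tv hij t * g = tv (σ.injective.ne hij) ((g.1 i (σ i))⁻¹ * t * g.1 j (σ j)) := by
  ext k l
  obtain ⟨k, rfl⟩ := σ.surjective k
  obtain ⟨l, rfl⟩ := σ.surjective l
  refine (h.conj_apply _ k l).trans ?_
  change _ = (tv _ _ : SLn).1 _ _
  simp only [tv_coe, Matrix.add_apply, one_apply, single_apply, EmbeddingLike.apply_eq_iff_eq]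
  have := h.ne_zero k
  by_cases e : k = l
  · subst e
    rw [if_pos rfl, if_neg fun e => hij (e.1.trans e.2.symm), if_neg fun e => hij (e.1.trans e.2.symm)]
    field_simp
  · rw [if_neg e]
    split_ifs with e'
    · rw [e'.1, e'.2]; simp
    · simp

theorem unique (h : Mono g σ) (h' : Mono g' τ) {u u' : SLn} (hu : u ∈ utSL n F) (hu' : u' ∈ utSL n F)
    (e : u * g = g' * u') : σ = τ := by
  have h1 : ∀ i, τ i ≤ σ i := fun i => by
    by_contra h2
    have h3 := congrArg (fun x : SLn => x.1 i (σ i)) e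
    simp only [Matrix.SpecialLinearGroup.coe_mul] at h3
    rw [h.mul_apply', h'.mul_apply, hu.2, one_mul, hu'.1 (not_le.1 h2), mul_zero] at h3
    exact h.ne_zero i h3
  have h2 := (Finset.sum_eq_sum_iff_of_le (s := Finset.univ) (f := fun i => (τ i).val)
    (g := fun i => (σ i).val) fun i _ => h1 i).1
    ((Equiv.sum_comp τ Fin.val).trans (Equiv.sum_comp σ Fin.val).symm)
  exact Equiv.ext fun i => Fin.ext (h2 i (Finset.mem_univ _)).symm

theorem eq_diagonal (h : Mono g 1) : g.1 = diagonal fun i => g.1 i i := by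
  ext i j
  by_cases e : i = j
  · rw [e, diagonal_apply_eq]
  · rw [diagonal_apply_ne _ e, h i j (Ne.symm e)]

theorem of_diagonal {d : Fin n → F} (h : g.1 = diagonal d) : Mono g 1 := fun _ _ e => by
  rw [h]; exact diagonal_apply_ne _ e.symm

end Mono

theorem tv_mem_iff {i j : Fin n} (hij : i ≠ j) : (∀ t : F, tv hij t ∈ utSL n F) ↔ i < j := by
  refine ⟨fun h => ?_, fun h => rootIn_utSL h.le hij⟩
  by_contra h1
  have := (h 1).1 (show j.val < i.val from lt_of_le_of_ne (not_lt.1 h1) (Fin.val_ne_of_ne hij.symm))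
  simp [tv_coe, hij] at this

theorem Mono.tv_mem_iff {g : SLn} {σ : Perm (Fin n)} (h : Mono g σ) {i j : Fin n} (hij : i ≠ j) :
    (∀ t : F, g⁻¹ * tv hij t * g ∈ utSL n F) ↔ σ i < σ j := by
  rw [← StB.tv_mem_iff (F := F) (σ.injective.ne hij)]
  simp only [h.conj_tv]
  refine ⟨fun h1 t => ?_, fun h1 t => h1 _⟩
  convert h1 (g.1 i (σ i) * t * (g.1 j (σ j))⁻¹) using 2
  have := h.ne_zero i
  have := h.ne_zero j
  field_simp

/-- the Weyl element -/
def nSL {i j : Fin n} (hij : i ≠ j) : SLn := tv hij 1 * tv hij.symm (-1) * tv hij 1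

theorem mono_nSL {i j : Fin n} (hij : i ≠ j) : Mono (nSL hij : SLn) (swap i j) := by
  intro k l h
  simp only [nSL, Matrix.SpecialLinearGroup.coe_mul, tv_coe, mul_add, add_mul, one_mul, mul_one,
    single_mul_single_same, single_mul_single_of_ne _ _ _ _ hij.symm, Matrix.add_apply, one_apply, single_apply,
    Matrix.zero_apply]
  rw [swap_apply_def] at h
  grind

theorem nxn_SL {i j : Fin n} (hij : i ≠ j) (t : Fˣ) :
    (nSL hij : SLn) * tv hij (-(t⁻¹ : Fˣ) : F) * nSL hij =
      tv hij (t : F) * SpecialLinearGroup.diag2n hij (t : F) t.ne_zero * nSL hij * tv hij (t : F) := by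
  have h1 : SpecialLinearGroup.diag2n hij (t : F) t.ne_zero * nSL hij =
      tv hij (t : F) * tv hij.symm (-(t : F)⁻¹) * tv hij (t : F) := by
    rw [diag2n_eq_prod, nSL]
    simp only [← Matrix.SpecialLinearGroup.transvection_inv, mul_assoc, inv_mul_cancel_left,
      mul_inv_cancel_left, inv_mul_cancel, mul_one]
  rw [mul_assoc (tv hij (t : F)) _ (nSL hij), h1]
  apply Subtype.ext
  have ht := t.ne_zero
  have h2 : ∀ {k l : Fin n} (h : k ≠ l) (a : F), (tv h a : SLn).1 = 1 + a • single k l 1 := fun h a => by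
    rw [tv_coe, smul_single, smul_eq_mul, mul_one]
  simp only [nSL, Matrix.SpecialLinearGroup.coe_mul, h2, mul_add, add_mul, one_mul, mul_one,
    smul_mul_assoc, mul_smul_comm, single_mul_single_same, single_mul_single_of_ne _ _ _ _ hij,
    single_mul_single_of_ne _ _ _ _ hij.symm, Units.val_inv_eq_inv_val, smul_zero, add_zero]
  match_scalars <;> field_simp <;> ring

variable {m : ℕ}

theorem cs_ne (i : Fin m) : i.castSucc ≠ i.succ := (Fin.castSucc_lt_succ (i := i)).ne

theorem swap_lt {i : Fin m} {k l : Fin (m + 1)}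
    (h : swap i.castSucc i.succ l < swap i.castSucc i.succ k) : l < k ∨ k = i.castSucc ∧ l = i.succ := by
  simp only [swap_apply_def, Fin.ext_iff, Fin.lt_def, Fin.val_castSucc, Fin.val_succ] at h ⊢
  split_ifs at h <;> (try simp only [Fin.val_castSucc, Fin.val_succ] at h) <;> omega

theorem swap_le_iff {i j : Fin m} (h : j ≠ i) (k : Fin (m + 1)) :
    swap j.castSucc j.succ k ≤ i.castSucc ↔ k ≤ i.castSucc := by
  have : j.val ≠ i.val := Fin.val_ne_of_ne h
  simp only [swap_apply_def, Fin.ext_iff, Fin.le_def, Fin.val_castSucc, Fin.val_succ]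
  split_ifs <;> (try simp only [Fin.val_castSucc, Fin.val_succ]) <;> omega

/-- the split BN-pair of `SL` -/
noncomputable def sbnSL (m : ℕ) (F : Type*) [Field F] :
    SBN (Matrix.SpecialLinearGroup (Fin (m + 1)) F) F (Fin m) where
  U := utSL (m + 1) F
  H := { carrier := {g | Mono g 1}
         mul_mem' := fun ha hb => by simpa using Mono.mul ha hb
         one_mem' := Mono.one
         inv_mem' := fun ha => by simpa using Mono.inv ha }
  N := { carrier := {g | ∃ σ, Mono g σ}
         mul_mem' := fun ⟨_, ha⟩ ⟨_, hb⟩ => ⟨_, ha.mul hb⟩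
         one_mem' := ⟨_, Mono.one⟩
         inv_mem' := fun ⟨_, ha⟩ => ⟨_, ha.inv⟩ }
  x i := tv (cs_ne i)
  n i := nSL (cs_ne i)
  h i t := SpecialLinearGroup.diag2n (cs_ne i) (t : F) t.ne_zero
  H_le _ h := ⟨_, h⟩
  n_mem _ := ⟨_, mono_nSL _⟩
  H_U a ha u hu := by
    have := (Mono.inv ha).conj_mem hu.2 fun i j h => hu.1 h
    rwa [inv_inv] at this
  N_H g hg a ha := by
    obtain ⟨σ, hg⟩ := hg
    simpa using (hg.inv.mul ha).mul hg
  x_add i := Matrix.SpecialLinearGroup.transvection_add _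
  x_mem i := (tv_mem_iff _).2 Fin.castSucc_lt_succ
  split i u hu := by
    have h1 := mul_mem (inv_mem ((tv_mem_iff (cs_ne i)).2 Fin.castSucc_lt_succ
      (u.1 i.castSucc i.succ))) hu
    refine ⟨_, (mono_nSL _).conj_mem h1.2 fun k l h => ?_⟩
    rcases swap_lt h with h | ⟨rfl, rfl⟩
    · exact h1.1 h
    · rw [Matrix.SpecialLinearGroup.transvection_inv, Matrix.SpecialLinearGroup.coe_mul, tv_coe, add_mul,
        one_mul, Matrix.add_apply, single_mul_apply_same, hu.2]
      simp
  n_sq i := by simpa using (mono_nSL (F := F) (cs_ne i)).mul (mono_nSL (cs_ne i))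
  nxn i t := ⟨_, (tv_mem_iff _).2 Fin.castSucc_lt_succ _, _, (tv_mem_iff _).2 Fin.castSucc_lt_succ _,
    nxn_SL _ t⟩
  h_mem _ _ := Mono.of_diagonal rfl
  bruhat g := by
    obtain ⟨u, hu, u', hu', w, σ, c, -, hw, e⟩ := bruhat_SL g
    exact ⟨u, hu, w, ⟨σ, fun i j h => by rw [hw, of_apply, if_neg h]⟩, u', hu', e⟩
  dich i g hg := by
    obtain ⟨σ, hg⟩ := hg
    rw [hg.tv_mem_iff, ((mono_nSL _).inv.mul hg).tv_mem_iff]
    simpa using lt_or_gt_of_ne (σ.injective.ne (cs_ne i))
  base g hg h := by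
    obtain ⟨σ, hg⟩ := hg
    have : σ = 1 := Equiv.ext (congrFun (StrictMono.eq_id
      (Fin.strictMono_iff_lt_succ.2 fun i => (hg.tv_mem_iff _).1 (h i))))
    exact this ▸ hg
  ne i g hg u hu a ha u' hu' e := by
    obtain ⟨σ, hg⟩ := hg
    have h1 := (Mono.mul ha hg).unique ((mono_nSL (cs_ne i)).mul hg) hu (inv_mem hu') (by rw [e]; group)
    exact cs_ne i (swap_eq_one_iff.1 (mul_left_cancel h1).symm)

theorem mem_closure_of_diag {K : Subgroup (Matrix.SpecialLinearGroup (Fin (m + 1)) F)}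
    (hK : ∀ i t, (sbnSL m F).h i t ∈ K) (r : ℕ) : ∀ a, Mono a 1 → (∀ k : Fin (m + 1), r < k.val → a.1 k k = 1) →
      a ∈ K := by
  induction r with
  | zero =>
    intro a ha h
    have h1 := a.2
    rw [ha.eq_diagonal, det_diagonal, Fin.prod_univ_succ,
      Finset.prod_eq_one fun k _ => h _ (by simp), mul_one] at h1
    have : a = 1 := Subtype.ext (by
      rw [ha.eq_diagonal]
      exact diagonal_eq_one.2 (funext (Fin.cases h1 fun k => h _ (by simp))))
    exact this ▸ one_mem K
  | succ r ih =>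
    intro a ha h
    by_cases hr : r < m
    · have h1 := Mono.of_diagonal (g := (sbnSL m F).h ⟨r, hr⟩ (Units.mk0 _ (ha.ne_zero (Fin.succ ⟨r, hr⟩)))) rfl
      refine (K.mul_mem_cancel_right (hK _ _)).1 (ih _ (by simpa using ha.mul h1) fun k hk => ?_)
      rw [Matrix.SpecialLinearGroup.coe_mul, ha.mul_apply]
      change a.1 k k * diagonal _ k k = 1
      rw [diagonal_apply_eq, if_neg (by rw [Fin.ext_iff]; simp; omega)]
      split_ifs with e
      · subst e; exact mul_inv_cancel₀ (ha.ne_zero _)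
      · rw [mul_one]
        exact h k (by rw [Fin.ext_iff] at e; simp at e; omega)
    · exact ih a ha fun k hk => h k (by omega)

theorem sbnSL_good (p : ℕ) [Fact p.Prime] [CharP F p] : (sbnSL m F).Good p where
  pU := isPGroup_utSL p
  H_comm a ha b hb := Subtype.ext (by
    rw [Matrix.SpecialLinearGroup.coe_mul, Matrix.SpecialLinearGroup.coe_mul, Mono.eq_diagonal ha,
      Mono.eq_diagonal hb]
    exact (commute_diagonal _ _).eq)
  h_mul i s t := Subtype.ext (by
    change diagonal _ = diagonal _ * diagonal _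
    rw [diagonal_mul_diagonal]
    congr 1
    ext k
    split_ifs <;> simp [mul_comm])
  H_gen a ha := mem_closure_of_diag (fun i t => Subgroup.subset_closure (by exact ⟨i, t, rfl⟩)) m a ha
    fun k hk => by omega
  cent i := by
    let Q := Subgroup.closure {g : Matrix.SpecialLinearGroup (Fin (m + 1)) F |
      ∃ k l, ∃ h : k ≠ l, ∃ t, k ≤ i.castSucc ∧ ¬ l ≤ i.castSucc ∧ g = tv h t}
    have hQ : ∀ g σ, Mono g σ → (∀ k, σ k ≤ i.castSucc ↔ k ≤ i.castSucc) → ∀ y ∈ Q, g⁻¹ * y * g ∈ Q := by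
      intro g σ hg hσ y hy
      refine (Subgroup.closure_le (Q.comap (MulAut.conj g⁻¹).toMonoidHom)).2 ?_ hy |> fun h => by
        simpa using h
      rintro _ ⟨k, l, h, t, h1, h2, rfl⟩
      exact Subgroup.subset_closure ⟨σ k, σ l, _, _, (hσ k).2 h1, fun e => h2 ((hσ l).1 e), by
        simpa using hg.conj_tv h t⟩
    refine ⟨Q, (Subgroup.closure_le _).2 ?_, fun a ha => hQ a 1 ha fun _ => Iff.rfl,
      fun j hj => hQ _ _ (mono_nSL _) (swap_le_iff hj), ?_⟩
    · rintro _ ⟨k, l, h, t, h1, h2, rfl⟩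
      exact (tv_mem_iff h).2 (h1.trans_lt (not_le.1 h2)) t
    · rintro g ⟨σ, hg⟩ u hu h
      have h1 : ∀ k l, k ≤ i.castSucc → ¬ l ≤ i.castSucc → ∀ r s,
          (if k = r then (g * u).1 l s else 0) = if l = s then (g * u).1 r k else 0 := by
        intro k l hk hl r s
        have h2 := congrArg (fun x : Matrix.SpecialLinearGroup (Fin (m + 1)) F => x.1 r s)
          (h _ (Subgroup.subset_closure ⟨k, l, fun e => hl (e ▸ hk), 1, hk, hl, rfl⟩))
        simp only [Matrix.SpecialLinearGroup.coe_mul (tv _ _),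
          Matrix.SpecialLinearGroup.coe_mul _ (tv _ _), tv_coe, add_mul, mul_add, one_mul, mul_one,
          Matrix.add_apply, add_right_inj] at h2
        simpa [Matrix.mul_apply, single_apply, ite_and] using h2
      have h2 : ∀ r, (g * u).1 r (σ r) = g.1 r (σ r) := fun r => by
        rw [Matrix.SpecialLinearGroup.coe_mul, hg.mul_apply, hu.2, mul_one]
      have h0 : ¬ i.succ ≤ i.castSucc := not_le.2 Fin.castSucc_lt_succ
      have h3 : ∀ r, σ r = r := fun r => by
        by_contra e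
        by_cases hr : r ≤ i.castSucc
        · have := h1 r _ hr h0 (σ⁻¹ r) i.succ
          rw [if_neg fun e' => e (by nth_rw 1 [e']; simp), if_pos rfl] at this
          have h4 := h2 (σ⁻¹ r)
          rw [show σ (σ⁻¹ r) = r by simp, ← this] at h4
          exact hg.ne_zero (σ⁻¹ r) (by simpa using h4.symm)
        · have := h1 _ r le_rfl hr i.castSucc (σ r)
          rw [if_pos rfl, if_neg (Ne.symm e), h2] at this
          exact hg.ne_zero r this
      have h4 : ∀ k l, k ≤ i.castSucc → ¬ l ≤ i.castSucc → g.1 l l = g.1 k k := fun k l hk hl => by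
        have := h1 k l hk hl k l
        rw [if_pos rfl, if_pos rfl] at this
        have h5 := h2 k
        have h6 := h2 l
        rw [h3] at h5 h6
        rw [← h5, ← h6, this]
      have h5 : g.1 = diagonal fun _ => g.1 i.succ i.succ := by
        rw [Mono.eq_diagonal ((show σ = 1 from Equiv.ext h3) ▸ hg)]
        congr 1
        ext k
        simp only [diagonal_apply_eq]
        by_cases hk : k ≤ i.castSucc
        · exact (h4 k _ hk h0).symm
        · rw [h4 _ k le_rfl hk, h4 _ _ le_rfl h0]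
      refine Subgroup.mem_center_iff.2 fun y => Subtype.ext ?_
      rw [Matrix.SpecialLinearGroup.coe_mul, Matrix.SpecialLinearGroup.coe_mul, h5]
      ext k l
      rw [mul_diagonal, diagonal_mul, mul_comm]

end Cfsg.Agent.StB
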